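import Cfsg.Agent.H891.DG.Defs
import Cfsg.Agent.Nodes.RGDTwAll

/-!
# S4180, task K1b (helper855): the exceptional groups of Lie type of rank at least 2 have root group data

`rk2_equiv`, `rk2_group`, `rk2_fold`; `rk2_G2`, `rk2_F4`, `rk2_E6`, `rk2_E7`, `rk2_E8`, `rk2_tE6`, `rk2_tD4` (over a given field of
characteristic `r`); `rk2_g2`, `rk2_f4`, `rk2_e6`, `rk2_e7`, `rk2_e8`, `rk2_twE6`, `rk2_twD4` (existence of `r`).
-/

set_option autoImplicit false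
set_option linter.unusedSectionVars false

namespace Cfsg.Agent.H855.DG

open CoxeterSystem Cfsg.Agent.ChevalleyStructure.CoxeterGeom Cfsg.Agent.Tits.Roots Cfsg.Agent.Tits.Core
  Cfsg.Agent.Nodes.BNOf Cfsg.Agent.Nodes.RGDTwGen Cfsg.Agent.Nodes.RGDChev Cfsg.Agent.Nodes.RGDFold
open Cfsg.Lie Cfsg.Agent.ChevalleyStructure Cfsg.Agent.ChevalleyStructure.Elts
  Cfsg.Agent.ChevalleyStructure.RootVec Cfsg.Agent.ChevalleyStructure.RootVecTab
  Cfsg.Agent.ChevalleyStructure.NPerm Cfsg.Agent.ChevalleyStructure.CoxeterGeomTypes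
open Cfsg.Agent.Nodes Cfsg.Agent.H891.DG

universe u v w

/-- `Rk2` is invariant under isomorphisms (between universes). -/
theorem rk2_equiv {r : ℕ} {G : Type u} {H : Type v} [Group G] [Group H] (e : G ≃* H) (hG : Rk2 r G) : Rk2 r H := by
  obtain ⟨l, M, A, h, T, n, X, h2, hW, R, hX⟩ := hG
  refine ⟨l, M, A, h, T.map e.toMonoidHom, fun i => e (n i), fun x => (X x).map e.toMonoidHom, h2, hW,
    Nodes.RGDLib.rgd_map_of_injective R e.toMonoidHom e.injective, ?_⟩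
  have h1 : (Nodes.RGDLib.G1 M.toCoxeterSystem h X).map e.toMonoidHom =
      Nodes.RGDLib.G1 M.toCoxeterSystem h (fun x => (X x).map e.toMonoidHom) := by
    unfold Nodes.RGDLib.G1 RGD.Sup
    rw [Subgroup.map_iSup]
  rw [← h1, hX, Subgroup.map_top_of_surjective _ e.surjective]

theorem rk2_group {D : ChevalleyDatum} {l : ℕ} {M : CoxeterMatrix (Fin l)} (hp : IsType D l M) (hl : 2 ≤ l) (K : Type w)
    [Field K] [Finite K] (r : ℕ) [CharP K r] {T : Type u} [Group T] (e : T ≃* ↥(D.group K)) : Rk2 r T := by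
  have : Fact r.Prime := ⟨CharP.char_is_prime K r⟩
  refine rk2_equiv e.symm ?_
  exact ⟨l, M, cartanOf D l, hp.isCartan, _, _, _, hl, finite_W hp M.toCoxeterSystem,
    RGDChev.rgd (K := K) hp M.toCoxeterSystem r, G1_eq_top hp _⟩

section

variable (K : Type w) [Field K] [Finite K] (r : ℕ) [CharP K r] {T : Type u} [Group T]

theorem rk2_G2 (e : T ≃* ↥(chevG2.group K)) : Rk2 r T :=
  rk2_group (l := 2) (M := CoxeterMatrix.G₂) (by simp [IsType, typeList]) le_rfl K r e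

theorem rk2_F4 (e : T ≃* ↥(chevF4.group K)) : Rk2 r T :=
  rk2_group (l := 4) (M := CoxeterMatrix.F₄) (by simp [IsType, typeList]) (by norm_num) K r e

theorem rk2_E6 (e : T ≃* ↥(chevE6.group K)) : Rk2 r T :=
  rk2_group (l := 6) (M := CoxeterMatrix.E₆) (by simp [IsType, typeList]) (by norm_num) K r e

theorem rk2_E7 (e : T ≃* ↥(chevE7.group K)) : Rk2 r T :=
  rk2_group (l := 7) (M := CoxeterMatrix.E₇) (by simp [IsType, typeList]) (by norm_num) K r e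

theorem rk2_E8 (e : T ≃* ↥(chevE8.group K)) : Rk2 r T :=
  rk2_group (l := 8) (M := CoxeterMatrix.E₈) (by simp [IsType, typeList]) (by norm_num) K r e

end

section Fold

variable {D : ChevalleyDatum} {l : ℕ} {M' : CoxeterMatrix (Fin l)} {hp : IsType D l M'} {K : Type w} [Field K]
variable {m : ℕ} {M : CoxeterMatrix (Fin m)} {A : Fin m → Fin m → ℤ}
variable {J : Fin m → List (Fin l)} {L : List (List ℕ)} {σ : GL D.Idx K →* GL D.Idx K} {ρ ρ' : ℕ → ℕ}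
    {f : ℕ → K → K} {G : Subgroup (GL D.Idx K)}

theorem rk2_fold [Finite K] (FD : FoldData D M A J L) (FG : FoldGrp hp K J L σ ρ ρ' f G) (hm : 2 ≤ m)
    (r : ℕ) [CharP K r] (h : IsCartan M A) {T : Type u} [Group T] (e : T ≃* ↥G) : Rk2 r T := by
  have : Fact r.Prime := ⟨CharP.char_is_prime K r⟩
  refine rk2_equiv e.symm ?_
  exact ⟨m, M, A, h, _, _, _, hm, RGDFold.finite_W (hp := hp) M.toCoxeterSystem h FD,
    RGDFold.rgd M.toCoxeterSystem h FD FG r, RGDFold.G1_eq_top M.toCoxeterSystem h FD FG r⟩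

end Fold

theorem rk2_tD4 {K : Type w} [Field K] [Fintype K] {q : ℕ} (hq : IsPrimePow q) (hK : Fintype.card K = q ^ 3)
    (r : ℕ) [CharP K r] {T : Type u} [Group T] (e : T ≃* ↥(twistedD4 K q)) : Rk2 r T := by
  obtain ⟨φ, hφ⟩ := D4Fixed.exists_frob hq hK
  exact rk2_fold RGDTwD4.foldData (RGDTwD4.foldGrp hφ (D4Fixed.twisted_le_fix hK hφ)) le_rfl r RGDTwD4.isCartan e

theorem rk2_tE6 {K : Type w} [Field K] [Fintype K] {q : ℕ} (hq : IsPrimePow q) (hK : Fintype.card K = q ^ 2)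
    (r : ℕ) [CharP K r] {T : Type u} [Group T] (e : T ≃* ↥(twistedE6 K q)) : Rk2 r T := by
  obtain ⟨φ, hφ, hqq⟩ := TwE6Basic.exists_frob hq hK
  exact rk2_fold RGDTwE6.foldData (RGDTwE6.foldGrp hφ hqq) (by norm_num) r RGDTwE6.isCartan e

/-! ### the rows -/

variable {T : Type u} [Group T]

theorem rk2_g2 (h : Cfsg.Lie.IsoChevG2 T) : ∃ r : ℕ, r.Prime ∧ Rk2 r T := by
  obtain ⟨F, _, _, -, ⟨e⟩⟩ := h
  obtain ⟨r, hr⟩ := CharP.exists F
  exact ⟨r, CharP.char_is_prime F r, rk2_G2 F r e⟩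

theorem rk2_f4 (h : Cfsg.Lie.IsoF4 T) : ∃ r : ℕ, r.Prime ∧ Rk2 r T := by
  obtain ⟨F, _, _, ⟨e⟩⟩ := h
  obtain ⟨r, hr⟩ := CharP.exists F
  exact ⟨r, CharP.char_is_prime F r, rk2_F4 F r e⟩

theorem rk2_e6 (h : Cfsg.Lie.IsoChevE6 T) : ∃ r : ℕ, r.Prime ∧ Rk2 r T := by
  obtain ⟨F, _, _, ⟨e⟩⟩ := h
  obtain ⟨r, hr⟩ := CharP.exists F
  exact ⟨r, CharP.char_is_prime F r, rk2_E6 F r e⟩

theorem rk2_e7 (h : Cfsg.Lie.IsoE7 T) : ∃ r : ℕ, r.Prime ∧ Rk2 r T := by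
  obtain ⟨F, _, _, ⟨e⟩⟩ := h
  obtain ⟨r, hr⟩ := CharP.exists F
  exact ⟨r, CharP.char_is_prime F r, rk2_E7 F r e⟩

theorem rk2_e8 (h : Cfsg.Lie.IsoE8 T) : ∃ r : ℕ, r.Prime ∧ Rk2 r T := by
  obtain ⟨F, _, _, ⟨e⟩⟩ := h
  obtain ⟨r, hr⟩ := CharP.exists F
  exact ⟨r, CharP.char_is_prime F r, rk2_E8 F r e⟩

theorem rk2_twE6 (h : Cfsg.Lie.Iso2E6 T) : ∃ r : ℕ, r.Prime ∧ Rk2 r T := by
  obtain ⟨F, _, _, q, hq, hF, ⟨e⟩⟩ := h
  obtain ⟨r, hr⟩ := CharP.exists F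
  exact ⟨r, CharP.char_is_prime F r, rk2_tE6 hq hF r e⟩

theorem rk2_twD4 (h : Cfsg.Lie.Iso3D4 T) : ∃ r : ℕ, r.Prime ∧ Rk2 r T := by
  obtain ⟨F, _, _, q, hq, hF, ⟨e⟩⟩ := h
  obtain ⟨r, hr⟩ := CharP.exists F
  exact ⟨r, CharP.char_is_prime F r, rk2_tD4 hq hF r e⟩

end Cfsg.Agent.H855.DG
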